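/-
Characters of the simple modules of `SL₂(3ⁿ)`: the Steinberg tensor product form.
-/
import Cfsg.Agent.H20.E8.B

set_option autoImplicit false
set_option linter.unusedSectionVars false
set_option linter.style.haveILetI false

namespace H20.E8
open Finset Polynomial

/-- weights of the restricted modules -/
def sw : ℕ → List ℤ
  | 0 => [0]
  | 1 => [1, -1]
  | _ => [2, 0, -2]

/-- weights of the simple module of highest weight `a` -/
def WW : ℕ → ℕ → List ℤ
  | 0, _ => [0]
  | n + 1, a => (WW n (a / 3)).flatMap fun w => (sw (a % 3)).map fun s => 3 * w + s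

/-- character of a list of weights -/
noncomputable def ch (l : List ℤ) (x : ℂ) : ℂ := (l.map fun w => x ^ w).sum

theorem ch_succ (n a : ℕ) {x : ℂ} (h : x ≠ 0) :
    ch (WW (n + 1) a) x = ch (WW n (a / 3)) (x ^ 3) * ch (sw (a % 3)) x := by
  rw [WW]
  induction WW n (a / 3) with
  | nil => simp [ch]
  | cons w l ih =>
    simp only [ch, List.flatMap_cons, List.map_append, List.sum_append, List.map_cons, List.sum_cons, add_mul,
      List.map_map] at ih ⊢
    rw [ih, ← List.sum_map_mul_left _ _ ((x ^ 3) ^ w)]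
    congr 3
    funext s
    simp only [Function.comp, zpow_add₀ h, zpow_mul]
    rfl

theorem ch_zero (a : ℕ) (x : ℂ) : ch (WW 0 a) x = 1 := by simp [WW, ch]

theorem mem_BB {p a b : ℕ} : b ∈ BB p a ↔ ¬ p ∣ a.choose b := by
  rw [BB, mem_filter, mem_range, and_iff_right_iff_imp]
  intro h
  by_contra e
  rw [Nat.choose_eq_zero_of_lt (by omega)] at h
  exact h (dvd_zero _)

theorem mem_BB3 {a b : ℕ} : b ∈ BB 3 a ↔ b / 3 ∈ BB 3 (a / 3) ∧ b % 3 ≤ a % 3 := by
  haveI := Fact.mk Nat.prime_three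
  rw [mem_BB, mem_BB, (Choose.choose_modEq_choose_mod_mul_choose_div_nat (n := a) (k := b) (p := 3)).dvd_iff dvd_rfl,
    Nat.prime_three.dvd_mul, not_or, and_comm, and_congr_right_iff]
  have := Nat.mod_lt a (show 0 < 3 by omega)
  have := Nat.mod_lt b (show 0 < 3 by omega)
  generalize a % 3 = r at *
  generalize b % 3 = s at *
  interval_cases r <;> interval_cases s <;> simp

theorem sum_BB : ∀ (n a : ℕ) (x : ℂ), a < 3 ^ n → x ≠ 0 → ∑ b ∈ BB 3 a, x ^ b * x⁻¹ ^ (a - b) = ch (WW n a) x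
  | 0, a, x, h, _ => by
    obtain rfl : a = 0 := by omega
    simp [ch_zero, BB, filter_singleton]
  | n + 1, a, x, h, h0 => by
    have h1 : ch (sw (a % 3)) x = ∑ s ∈ range (a % 3 + 1), x ^ s * x⁻¹ ^ (a % 3 - s) := by
      have := Nat.mod_lt a (show 0 < 3 by omega)
      generalize a % 3 = r at *
      interval_cases r <;> simp [ch, sw, sum_range_succ, h0, zpow_ofNat] <;> ring
    rw [ch_succ n a h0, ← sum_BB n _ _ (by omega) (pow_ne_zero 3 h0), h1, sum_mul_sum, ← sum_product']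
    refine sum_nbij' (fun b => (b / 3, b % 3)) (fun c => 3 * c.1 + c.2) (fun b hb => ?_) (fun c hc => ?_)
      (fun b _ => by simp [Nat.div_add_mod]) (fun c hc => ?_) fun b hb => ?_
    · simpa [Nat.lt_succ_iff] using mem_BB3.1 hb
    · simp only [mem_product, mem_range] at hc
      rw [mem_BB3, show (3 * c.1 + c.2) / 3 = c.1 by omega]
      exact ⟨hc.1, by omega⟩
    · simp only [mem_product, mem_range] at hc
      ext <;> simp only <;> omega
    · obtain ⟨h2, h3⟩ := mem_BB3.1 hb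
      have := mem_range.1 (mem_filter.1 h2).1
      rw [← inv_pow, ← pow_mul, ← pow_mul, mul_mul_mul_comm, ← pow_add, ← pow_add]
      congr 2 <;> omega

/-- the restricted characters as polynomials in the trace -/
noncomputable def sp : ℕ → ℂ[X]
  | 0 => 1
  | 1 => X
  | _ => X ^ 2 - 1

/-- the characters as polynomials in the trace -/
noncomputable def PP : ℕ → ℕ → ℂ[X]
  | 0, _ => 1
  | n + 1, a => (PP n (a / 3)).comp (X ^ 3 - 3 * X) * sp (a % 3)

theorem eval_sp (r : ℕ) {x : ℂ} (h : x ≠ 0) : (sp r).eval (x + x⁻¹) = ch (sw r) x := by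
  rcases r with _ | _ | r <;> simp [ch, sw, sp, zpow_ofNat]
  field_simp
  ring

theorem eval_PP : ∀ (n a : ℕ) (x : ℂ), x ≠ 0 → (PP n a).eval (x + x⁻¹) = ch (WW n a) x
  | 0, a, x, _ => by simp [PP, ch_zero]
  | n + 1, a, x, h => by
    rw [ch_succ n a h, PP, eval_mul, eval_sp _ h, eval_comp, ← eval_PP n _ _ (pow_ne_zero 3 h)]
    congr 2
    simp
    field_simp
    ring

theorem monic_PP : ∀ n a : ℕ, a < 3 ^ n → (PP n a).IsMonicOfDegree a
  | 0, a, h => by
    obtain rfl : a = 0 := by omega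
    simp [PP]
  | n + 1, a, h => by
    obtain ⟨h1, h2⟩ := monic_PP n (a / 3) (by omega)
    have h3 : (X ^ 3 - 3 * X : ℂ[X]).natDegree = 3 := by compute_degree!
    have h4 : (sp (a % 3)).IsMonicOfDegree (a % 3) := by
      have := Nat.mod_lt a (show 0 < 3 by omega)
      generalize a % 3 = r at *
      interval_cases r
      · simp [sp]
      · exact isMonicOfDegree_X ℂ
      · change (X ^ 2 - 1 : ℂ[X]).IsMonicOfDegree 2
        exact ⟨by compute_degree!, by monicity!⟩
    have h5 : ((PP n (a / 3)).comp (X ^ 3 - 3 * X)).IsMonicOfDegree (a / 3 * 3) :=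
      ⟨by rw [natDegree_comp, h1, h3], h2.comp (by monicity!) (by omega)⟩
    simpa [PP, Nat.div_add_mod'] using h5.mul h4

theorem indep {P : ℕ → ℂ[X]} (c : ℕ → ℂ) : ∀ N, (∀ a < N, (P a).IsMonicOfDegree a) →
    ∑ a ∈ range N, C (c a) * P a = 0 → ∀ a < N, c a = 0
  | 0, _, _, _, h => by omega
  | N + 1, h, e, a, ha => by
    have h1 := congrArg (coeff · N) e
    simp only [sum_range_succ, coeff_add, finsetSum_coeff, coeff_C_mul, coeff_zero] at h1
    rw [sum_eq_zero fun b hb => by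
      rw [coeff_eq_zero_of_natDegree_lt ((h b (by have := mem_range.1 hb; omega)).1.trans_lt (mem_range.1 hb)), mul_zero],
      (h N (by omega)).coeff_eq (isMonicOfDegree_X_pow ℂ N) le_rfl] at h1
    simp only [coeff_X_pow_self, zero_add, mul_one] at h1
    rcases (Nat.le_of_lt_succ ha).eq_or_lt with rfl | ha
    · exact h1
    · exact indep c N (fun b hb => h b (by omega)) (by simpa [sum_range_succ, h1] using e) a ha

theorem indep_ch {F : Type*} [Fintype F] {n : ℕ} (hF : Fintype.card F = 3 ^ n) (x : F → ℂ) (h0 : ∀ t, x t ≠ 0)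
    (hx : Function.Injective fun t => x t + (x t)⁻¹) (c : ℕ → ℂ)
    (h : ∀ t, ∑ a ∈ range (3 ^ n), c a * ch (WW n a) (x t) = 0) : ∀ a < 3 ^ n, c a = 0 := by
  refine indep c _ (monic_PP n) (eq_zero_of_natDegree_lt_card_of_eval_eq_zero _ hx (fun t => ?_) ?_)
  · simp [eval_finsetSum, eval_PP _ _ _ (h0 t), h]
  · rw [hF]
    refine (natDegree_sum_le_of_forall_le (n := 3 ^ n - 1) _ _ fun a ha => ?_).trans_lt (by simp)
    have := mem_range.1 ha
    exact (natDegree_C_mul_le _ _).trans (by rw [(monic_PP n a this).1]; omega)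

theorem ch_top : ∀ (m a r : ℕ) (x : ℂ), a < 3 ^ m → r < 3 → x ≠ 0 →
    ch (WW (m + 1) (a + r * 3 ^ m)) x = ch (WW m a) x * ch (sw r) (x ^ 3 ^ m)
  | 0, a, r, x, ha, hr, h => by
    obtain rfl : a = 0 := by omega
    simp [ch_succ _ _ h, ch_zero, Nat.mod_eq_of_lt hr]
  | m + 1, a, r, x, ha, hr, h => by
    rw [ch_succ _ _ h, ch_succ _ _ h, pow_succ, ← mul_assoc, Nat.add_mul_div_right _ _ (by omega),
      Nat.add_mul_mod_self_right, ch_top m _ r _ (by omega) hr (pow_ne_zero 3 h), ← pow_mul, mul_comm 3]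
    ring

/-- rotation of the digits -/
def rot (m a : ℕ) : ℕ := a / 3 + a % 3 * 3 ^ m

theorem rot_lt {m a : ℕ} (h : a < 3 ^ (m + 1)) : rot m a < 3 ^ (m + 1) := by
  have := Nat.mul_le_mul_right (3 ^ m) (show a % 3 ≤ 2 by omega)
  rw [rot]; omega

theorem ch_rot {m a : ℕ} (h : a < 3 ^ (m + 1)) {x : ℂ} (h0 : x ≠ 0) (hx : x ^ 3 ^ (m + 1) = x ∨ x ^ 3 ^ (m + 1) = x⁻¹) :
    ch (WW (m + 1) (rot m a)) (x ^ 3) = ch (WW (m + 1) a) x := by
  rw [rot, ch_top m _ _ _ (by omega) (by omega) (pow_ne_zero 3 h0), ch_succ _ _ h0, ← pow_mul, ← pow_succ']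
  rcases hx with e | e <;> rw [e]
  rw [← eval_sp _ h0, ← eval_sp _ (inv_ne_zero h0), inv_inv, add_comm]

theorem sum_rot (m : ℕ) (f : ℕ → ℂ) : ∑ a ∈ range (3 ^ (m + 1)), f (rot m a) = ∑ a ∈ range (3 ^ (m + 1)), f a := by
  have hi : Set.InjOn (rot m) (range (3 ^ (m + 1))) := fun a ha b hb e => by
    simp only [coe_range, Set.mem_Iio, rot] at ha hb e
    have h1 := congrArg (· % 3 ^ m) e
    simp only [Nat.add_mul_mod_self_right] at h1
    rw [Nat.mod_eq_of_lt (by omega), Nat.mod_eq_of_lt (by omega)] at h1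
    rw [h1, Nat.add_left_cancel_iff, Nat.mul_left_inj (by positivity)] at e
    omega
  have hm : ∀ a ∈ range (3 ^ (m + 1)), rot m a ∈ range (3 ^ (m + 1)) := fun a ha => mem_range.2 (rot_lt (mem_range.1 ha))
  exact sum_nbij _ hm hi (surjOn_of_injOn_of_card_le _ hm hi le_rfl) fun _ _ => rfl

theorem ch_neg_one : ∀ n a : ℕ, a < 3 ^ n → ch (WW n a) (-1) = (-1) ^ a * (WW n a).length ∧ 0 < (WW n a).length
  | 0, a, h => by
    obtain rfl : a = 0 := by omega
    simp [ch, WW]
  | n + 1, a, h => by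
    obtain ⟨h1, h2⟩ := ch_neg_one n (a / 3) (by omega)
    have h3 : (WW (n + 1) a).length = (WW n (a / 3)).length * (sw (a % 3)).length := by
      simp [WW]
    rw [ch_succ _ _ (by norm_num), show (-1 : ℂ) ^ 3 = -1 by norm_num, h1, h3,
      show (-1 : ℂ) ^ a = (-1) ^ (a / 3) * (-1) ^ (a % 3) by
        conv_lhs => rw [← Nat.div_add_mod a 3, pow_add, pow_mul]
        norm_num]
    have := Nat.mod_lt a (show 0 < 3 by omega)
    generalize a % 3 = r at *
    interval_cases r <;> simp [ch, sw, h2, zpow_ofNat] <;> norm_num <;> ring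

theorem ch_one (l : List ℤ) : ch l 1 = l.length := by simp [ch]

end H20.E8
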