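/-
Brauer characters of `SL₂(3ⁿ)` in the defining characteristic.
-/
import Cfsg.Agent.H20.E8.C
import Cfsg.Agent.H0.BC.B

set_option autoImplicit false
set_option linter.unusedSectionVars false
set_option linter.style.haveILetI false

namespace H20.E8
open Cfsg MonoidAlgebra H5 H7 H8 H21 H0.BC Finset Module Matrix
open scoped MatrixGroups

variable {M : Ideal AlgInt} {p : ℕ}

section simple
variable {G : Type*} [Group G] [Finite G] (W : Wed G M) (j : Fin W.L)

/-- the simple modules -/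
noncomputable def sm : G →* End (kk M) (Fin (W.n j) → kk M) where
  toFun g := toLin' (W.π (single g 1) j)
  map_one' := by rw [← one_def, map_one, Pi.one_apply, toLin'_one]; rfl
  map_mul' g h := by rw [← one_mul (1 : kk M), ← single_mul_single, map_mul, Pi.mul_apply, toLin'_mul]; simp; rfl

theorem lf_sm (a : (kk M)[G]) : H0.BC.lf (sm W j) a = toLin' (W.π a j) := by
  induction a using MonoidAlgebra.induction_linear with
  | zero => simp
  | add x y hx hy => simp [hx, hy]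
  | single g c =>
    rw [lf_single, ← mul_one c, ← smul_eq_mul, ← MonoidAlgebra.smul_single, map_smul W.π, Pi.smul_apply, map_smul, smul_eq_mul,
      mul_one]
    rfl

theorem bc_sm (hM : IsPModular p M) : IsBC (sm W j) (W.φ hM j) where
  cl := W.isClassFunction_φ hM j
  ev e he hi := by
    rw [Wed.Lift.ev_φ hM ⟨he, hi, rfl⟩ j, op, lf_sm, rnk, toLin'_apply']
    rfl

theorem simple_sm (N : Submodule (kk M) (Fin (W.n j) → kk M)) (h : ∀ g, ∀ s ∈ N, sm W j g s ∈ N) :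
    N = ⊥ ∨ N = ⊤ := by
  have h1 : ∀ a, ∀ s ∈ N, H0.BC.lf (sm W j) a s ∈ N := fun a s hs => by
    induction a using MonoidAlgebra.induction_linear with
    | zero => simp
    | add x y hx hy => simpa using N.add_mem hx hy
    | single g c => simpa using N.smul_mem c (h g s hs)
  refine or_iff_not_imp_left.2 fun e => eq_top_iff.2 fun w _ => ?_
  obtain ⟨v, hv, v0⟩ := N.exists_mem_ne_zero_of_ne_bot e
  obtain ⟨f, hf⟩ := Module.Projective.exists_dual_eq_one (kk M) v0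
  obtain ⟨a, ha⟩ := W.surj (Pi.single j (LinearMap.toMatrix' (f.smulRight w)))
  simpa [lf_sm, ha, hf] using h1 a v hv

end simple

section
variable {F : Type*} [Field F] [Fintype F] {k : Type*} [Field k] (ι : F →+* k)

theorem mem_range_of_pow {y : k} (h : y ^ Fintype.card F = y) : ∃ t, ι t = y := by
  open Polynomial in
  refine Splits.mem_range_of_isRoot (f := X ^ Fintype.card F - X) ?_
    (FiniteField.X_pow_card_sub_X_ne_zero F Fintype.one_lt_card) (by simp [h])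
  rw [splits_iff_card_roots, FiniteField.X_pow_card_sub_X_natDegree_eq F Fintype.one_lt_card,
    FiniteField.roots_X_pow_card_sub_X F, ← Finset.card_def, Finset.card_univ]

/-- `g` has eigenvalues `y, y⁻¹` and is diagonalisable -/
def Eg (g : SL(2, F)) (y : k) : Prop := ∃ v w : Fin 2 → k, v 0 * w 1 - v 1 * w 0 ≠ 0 ∧
  g.1.map ι *ᵥ v = y • v ∧ g.1.map ι *ᵥ w = y⁻¹ • w

theorem ex_Eg {y : k} (h0 : y ≠ 0) {t : F} (h : ι t = y + y⁻¹) : ∃ g, Eg ι g y := by
  by_cases h1 : y = 1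
  · exact ⟨1, ![1, 0], ![0, 1], by simp, by simp [h1], by simp [h1]⟩
  by_cases h2 : y = -1
  · refine ⟨-1, ![1, 0], ![0, 1], by simp, ?_, ?_⟩ <;>
      simp [h2, Matrix.map_neg _ ι.map_neg, neg_mulVec]
  refine ⟨ww * uu t, ![1, -y], ![1, -y⁻¹], fun e => ?_, ?_, ?_⟩
  · simp only [cons_val_zero, cons_val_one, cons_val_fin_one] at e
    field_simp at e
    exact (mul_ne_zero (sub_ne_zero.2 h1) (sub_ne_zero.2 h2)) (by linear_combination e)
  · ext i; fin_cases i <;> simp [mulVec, dotProduct, h]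
    field_simp; ring
  · ext i; fin_cases i <;> simp [mulVec, dotProduct, h]
    field_simp; ring

theorem Eg.pow {g : SL(2, F)} {y : k} (h : Eg ι g y) (n : ℕ) : Eg ι (g ^ n) (y ^ n) := by
  obtain ⟨v, w, h0, h1, h2⟩ := h
  have : ∀ v : Fin 2 → k, ∀ c : k, g.1.map ι *ᵥ v = c • v → (g ^ n).1.map ι *ᵥ v = c ^ n • v := fun v c h => by
    induction n with
    | zero => simp
    | succ n ih => rw [pow_succ, show (g ^ n * g).1 = (g ^ n).1 * g.1 from rfl, Matrix.map_mul, ← mulVec_mulVec, h, mulVec_smul, ih,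
        smul_smul, pow_succ']
  exact ⟨v, w, h0, this _ _ h1, inv_pow y n ▸ this _ _ h2⟩

theorem Eg.eq {g : SL(2, F)} {c : F} (h : Eg ι g (ι c)) (hc : c⁻¹ = c) : g.1 = c • 1 := by
  obtain ⟨v, w, h0, h1, h2⟩ := h
  rw [← map_inv₀, hc] at h2
  have a0 := congrFun h1 0
  have a1 := congrFun h1 1
  have b0 := congrFun h2 0
  have b1 := congrFun h2 1
  simp [mulVec, dotProduct] at a0 a1 b0 b1
  ext i j
  apply ι.injective
  fin_cases i <;> fin_cases j <;> simp only [Fin.zero_eta, Fin.mk_one, Matrix.smul_apply, one_apply_eq, ne_eq,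
    zero_ne_one, one_ne_zero, not_false_eq_true, one_apply_ne, smul_eq_mul, mul_one, mul_zero, map_zero] <;>
    apply mul_right_cancel₀ h0
  · linear_combination w 1 * a0 - v 1 * b0
  · linear_combination v 0 * b0 - w 0 * a0
  · linear_combination w 1 * a1 - v 1 * b1
  · linear_combination v 0 * b1 - w 0 * a1

end

variable {F : Type*} [Field F] [Fintype F] {X : Type*} [AddCommGroup X] [Module (kk M) X]
  {ρ : SL(2, F) →* End (kk M) X} {β : SL(2, F) → ℂ}

theorem red_prim_ne {l : ℕ} (hl : ¬ p ∣ l) {x : ℂ} (hx : x ^ l = 1) : red M x ≠ 0 := fun e => by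
  have l0 : l ≠ 0 := fun e => hl (e ▸ dvd_zero p)
  have := red_pow (mem_V_of_pow (M := M) l0 hx) l
  simp [hx, e, l0] at this

theorem Eg.pow_one (ι : F →+* kk M) {g : SL(2, F)} {x : ℂ} (hg : Eg ι g (red M x)) {l : ℕ} (l0 : l ≠ 0)
    (hx : x ^ l = 1) : g ^ l = 1 := Subtype.ext (by
  have := hg.pow ι l
  rw [← red_pow (mem_V_of_pow l0 hx), hx, red_one, ← map_one ι] at this
  simpa using this.eq ι inv_one)

theorem decomp (hM : IsPModular 3 M) {n : ℕ} (hF : Fintype.card F = 3 ^ n) (h : IsBC ρ β) (ι : F →+* kk M) :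
    ∃ Mu : ℕ → ℕ, ∀ (g : SL(2, F)) (x : ℂ) (l : ℕ), ¬ 3 ∣ l → x ^ l = 1 → Eg ι g (red M x) →
      β g = ∑ a ∈ range (3 ^ n), Mu a * ch (WW n a) x := by
  classical
  haveI := charP_kk hM
  haveI := Fact.mk Nat.prime_three
  obtain ⟨W⟩ := exists_wed SL(2, F) M
  haveI : ∀ j, Nontrivial (Fin (W.n j) → kk M) := fun j => by haveI : Nonempty (Fin (W.n j)) := ⟨W.o j⟩; infer_instance
  choose a ha hb using fun j => simple_sl2 3 ι (sm W j) (simple_sm W j)
  refine ⟨fun b => ∑ j with a j = b, rnk (op ρ (W.i j)), fun g x l hl hx hg => ?_⟩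
  have l0 : l ≠ 0 := fun e => hl (e ▸ dvd_zero 3)
  have x0 : x ≠ 0 := fun e => by simp [e, l0] at hx
  have hV : x ∈ V M := mem_V_of_pow l0 hx
  have hV' : x⁻¹ ∈ V M := mem_V_of_pow l0 (by rw [inv_pow, hx, inv_one])
  have hi : red M x⁻¹ = (red M x)⁻¹ := eq_inv_of_mul_eq_one_left (by rw [← red_mul hV' hV, inv_mul_cancel₀ x0, red_one])
  have hl' := hg.pow_one ι l0 hx
  have h1 := congrFun (W.rp_eq_sum_φ hM h.cl) g
  rw [pRegularPart, if_pos (show IsPRegular 3 g from fun e => hl (e.trans (orderOf_dvd_of_pow_eq_one hl')))] at h1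
  rw [h1, Finset.sum_apply, ← sum_fiberwise_of_maps_to (g := a) (t := range (3 ^ n))
    fun j _ => mem_range.2 (hF ▸ ha j)]
  refine sum_congr rfl fun b hb' => ?_
  rw [Nat.cast_sum, sum_mul]
  refine sum_congr rfl fun j hj => ?_
  obtain rfl := (mem_filter.1 hj).2
  obtain ⟨v, w, h0, hv, hw⟩ := hg
  obtain ⟨e, he⟩ := hb j g _ _ v w h0 hv hw
  have := (bc_sm W j hM).cyc hM hl hl' e (fun i => x ^ i.1 * x⁻¹ ^ (a j - i)) (fun i => by
    rw [mul_pow, pow_right_comm, pow_right_comm x⁻¹, inv_pow x l, hx]; simp) (fun i => by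
    rw [he, red_mul (pow_mem hV _) (pow_mem hV' _), red_pow hV, red_pow hV', hi]) 1
  simp only [pow_one] at this
  rw [Pi.smul_apply, h.ev _ (W.lift_i j).mem (W.lift_i j).idem, this, smul_eq_mul,
    ← sum_BB n _ x (mem_range.1 hb') x0, sum_coe_sort (BB 3 (a j)) fun i => x ^ i * x⁻¹ ^ (a j - i)]

theorem ex_lift (hM : IsPModular p M) {l : ℕ} (hl : ¬ p ∣ l) {y : kk M} (h : y ^ l = 1) :
    ∃ x : ℂ, x ^ l = 1 ∧ red M x = y := by
  have l0 : l ≠ 0 := fun e => hl (e ▸ dvd_zero p)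
  haveI := NeZero.mk l0
  have hζ := Complex.isPrimitiveRoot_exp l l0
  obtain ⟨i, -, hi⟩ := (red_prim hM hl hζ).eq_pow_of_pow_eq_one h
  exact ⟨_ ^ i, by rw [pow_right_comm, hζ.pow_eq_one, one_pow], by rw [red_pow (mem_V_of_pow l0 hζ.pow_eq_one), hi]⟩

theorem sl2_bc (hM : IsPModular 3 M) {m : ℕ} (hF : Fintype.card F = 3 ^ (m + 1)) (h : IsBC ρ β)
    (h3 : ∀ g l, ¬ 3 ∣ l → g ^ l = 1 → β (g ^ 3) = β g) (hn : β (-1) = β 1) : ∃ Mu : ℕ → ℕ,
      (∀ a < 3 ^ (m + 1), Mu (rot m a) = Mu a) ∧ (∀ a < 3 ^ (m + 1), a % 2 = 1 → Mu a = 0) ∧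
      ∀ (l : ℕ) (x : ℂ), ¬ 3 ∣ l → x ^ l = -1 → (x ^ 3 ^ (m + 1) = x ∨ x ^ 3 ^ (m + 1) = x⁻¹) →
        ∃ g : SL(2, F), g ^ l = -1 ∧
          ∀ k, β (g ^ k) = ∑ a ∈ range (3 ^ (m + 1)), Mu a * ch (WW (m + 1) a) (x ^ k) := by
  haveI := charP_kk hM
  haveI := Fact.mk Nat.prime_three
  haveI := charP_of_card_eq_prime_pow hF
  obtain ⟨ι⟩ : Nonempty (F →+* kk M) := by
    letI := ZMod.algebra (kk M) 3
    letI := ZMod.algebra F 3
    exact ⟨(IsAlgClosed.lift : F →ₐ[ZMod 3] kk M)⟩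
  obtain ⟨Mu, hMu⟩ := decomp hM hF h ι
  have hp : ∀ {g x l}, ¬ 3 ∣ l → x ^ l = 1 → Eg ι g (red M x) → ∀ k,
      β (g ^ k) = ∑ a ∈ range (3 ^ (m + 1)), Mu a * ch (WW (m + 1) a) (x ^ k) := fun {g x l} hl hx hg k =>
    hMu _ _ l hl (by rw [pow_right_comm, hx, one_pow])
      (by rw [red_pow (mem_V_of_pow (l := l) (by omega) hx)]; exact hg.pow ι k)
  refine ⟨Mu, fun a ha => ?_, fun a ha h2 => ?_, fun l x hl hx hq => ?_⟩
  · have : ∀ t : F, ∃ (x : ℂ) (l : ℕ), ¬ 3 ∣ l ∧ x ^ l = 1 ∧ (x ^ 3 ^ (m + 1) = x ∨ x ^ 3 ^ (m + 1) = x⁻¹) ∧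
        ι t = red M x + (red M x)⁻¹ := fun t => by
      obtain ⟨y, hy⟩ := IsAlgClosed.exists_root (Polynomial.C 1 * Polynomial.X ^ 2 + Polynomial.C (-ι t) * Polynomial.X +
        Polynomial.C 1) (by rw [Polynomial.degree_quadratic one_ne_zero]; simp)
      simp at hy
      have y0 : y ≠ 0 := fun e => by simp [e] at hy
      have h1 : ι t = y + y⁻¹ := by field_simp; linear_combination -hy
      have h2 : y ^ 3 ^ (m + 1) + (y ^ 3 ^ (m + 1))⁻¹ = y + y⁻¹ := by
        rw [← inv_pow, ← add_pow_char_pow, ← h1, ← map_pow, ← hF, FiniteField.pow_card]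
      have h4 : (y ^ 3 ^ (m + 1) - y) * (y ^ 3 ^ (m + 1) * y - 1) = 0 := by
        have := pow_ne_zero (3 ^ (m + 1)) y0
        generalize y ^ 3 ^ (m + 1) = z at *
        field_simp at h2
        linear_combination h2
      have h5 := Nat.pos_of_neZero (3 ^ m)
      rcases mul_eq_zero.1 h4 with e | e
      · obtain ⟨x, hx, rfl⟩ := ex_lift hM (l := 3 ^ (m + 1) - 1) (by omega) (y := y) (mul_right_cancel₀ y0 (by
          rw [← pow_succ, Nat.sub_add_cancel (by omega), one_mul, ← sub_eq_zero, e]))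
        exact ⟨x, _, by omega, hx, .inl (by rw [← Nat.sub_add_cancel (show 1 ≤ 3 ^ (m + 1) by omega), pow_succ, hx,
          one_mul]), h1⟩
      · obtain ⟨x, hx, rfl⟩ := ex_lift hM (l := 3 ^ (m + 1) + 1) (by omega) (y := y) (by
          rw [pow_succ, ← sub_eq_zero, e])
        exact ⟨x, _, by omega, hx, .inr (eq_inv_of_mul_eq_one_left (by rw [← pow_succ, hx])), h1⟩
    choose x l hl hx hq ht using this
    have l0 : ∀ t, l t ≠ 0 := fun t e => hl t (e ▸ dvd_zero 3)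
    have x0 : ∀ t, x t ≠ 0 := fun t e => by simpa [e, l0] using hx t
    have := indep_ch hF x x0 (fun s t e => ι.injective ?_) (fun a => Mu (rot m a) - Mu a) (fun t => ?_) a ha
    · exact_mod_cast sub_eq_zero.1 this
    · have a1 : ∀ t, ι t = red M (x t + (x t)⁻¹) := fun t => by
        have hV := mem_V_of_pow (M := M) (l0 t) (hx t)
        have hV' : (x t)⁻¹ ∈ V M := mem_V_of_pow (l0 t) (by rw [inv_pow, hx, inv_one])
        rw [ht, red_add hV hV', eq_inv_of_mul_eq_one_left (a := red M (x t)⁻¹) (b := red M (x t))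
          (by rw [← red_mul hV' hV, inv_mul_cancel₀ (x0 t), red_one])]
      rw [a1, a1]
      exact congrArg _ e
    · obtain ⟨g, hg⟩ := ex_Eg ι ((red_prim_ne (M := M) (hl t) (hx t))) (ht t)
      have a1 := h3 g _ (hl t) (hg.pow_one ι (l0 t) (hx t))
      rw [hp (hl t) (hx t) hg, hMu g _ _ (hl t) (hx t) hg, ← sum_rot, ← sub_eq_zero, ← sum_sub_distrib] at a1
      rw [← a1]
      exact sum_congr rfl fun a ha => by rw [ch_rot (mem_range.1 ha) (x0 t) (hq t), sub_mul]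
  · have a1 := hMu 1 1 1 (by omega) (by simp) ⟨![1, 0], ![0, 1], by simp, by simp, by simp⟩
    have a2 := hMu (-1) (-1) 2 (by omega) (by simp) ⟨![1, 0], ![0, 1], by simp,
      by simp [red_neg, Matrix.map_neg _ ι.map_neg, neg_mulVec], by simp [red_neg, Matrix.map_neg _ ι.map_neg, neg_mulVec]⟩
    rw [hn, a1, ← sub_eq_zero, ← sum_sub_distrib, sum_congr rfl (g := fun a =>
      ((Mu a * (a % 2) * 2 * (WW (m + 1) a).length : ℕ) : ℂ)) fun a ha => ?_] at a2
    · norm_cast at a2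
      simpa [h2, (ch_neg_one _ a ha).2.ne'] using sum_eq_zero_iff.1 a2 a (mem_range.2 ha)
    · rw [ch_one, (ch_neg_one _ a (mem_range.1 ha)).1, neg_one_pow_eq_pow_mod_two]
      rcases Nat.mod_two_eq_zero_or_one a with e | e <;> simp [e]
      ring
  · have hx2 : x ^ (l * 2) = 1 := by simp [pow_mul, hx]
    have hl2 : ¬ 3 ∣ l * 2 := by omega
    have hV := mem_V_of_pow (M := M) (by omega) hx2
    have y0 := red_prim_ne (M := M) hl2 hx2
    obtain ⟨t, ht⟩ := mem_range_of_pow ι (y := red M x + (red M x)⁻¹) (by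
      rw [hF, add_pow_char_pow, inv_pow, ← red_pow hV]
      rcases hq with e | e <;> rw [e]
      rw [red_inv (red_ne_zero_iff.1 y0), inv_inv, add_comm])
    obtain ⟨g, hg⟩ := ex_Eg ι y0 ht
    refine ⟨g, Subtype.ext ?_, hp hl2 hx2 hg⟩
    have := hg.pow ι l
    rw [← red_pow hV, hx, red_neg, red_one, ← map_one ι, ← map_neg] at this
    simpa using this.eq ι inv_neg_one

end H20.E8
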