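/-
Homomorphisms `PSL₂(3ⁿ) → E₈(3)`: the multiplicity equations.
-/
import Cfsg.Agent.H20.E8.D
import Cfsg.Agent.H0.BC.D

set_option autoImplicit false
set_option linter.unusedSectionVars false
set_option linter.style.haveILetI false

namespace H20.E8
open Cfsg MonoidAlgebra H5 H7 H8 H21 H0.BC Finset Module Matrix H23.Sec
open scoped MatrixGroups

variable {M : Ideal AlgInt} {δ : Kb 3 →+* kk M} {β : E83 → ℂ}

theorem zpow_mod {ζ : ℂ} {l : ℕ} (l0 : l ≠ 0) (h : ζ ^ l = 1) (n : ℤ) : ζ ^ n = ζ ^ (n % l) := by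
  conv_lhs => rw [← Int.emod_add_mul_ediv n l, zpow_add₀ (fun e => by simp [e, l0] at h), _root_.zpow_mul,
    zpow_natCast, h, _root_.one_zpow, mul_one]

theorem cube (h : IsBC (ρ3 δ) β) (hM : IsPModular 3 M) {l : ℕ} (hl : ¬ 3 ∣ l) {s : E83} (hs : s ^ l = 1) :
    β (s ^ 3) = β s := by
  have l0 : l ≠ 0 := by omega
  have hζ := Complex.isPrimitiveRoot_exp l l0
  obtain ⟨ν, -, -, h1, -, ⟨w, -, h2⟩, -⟩ := h.tor8 hM hl hζ hs
  conv_rhs => rw [← pow_one s]
  rw [h1, h1, ← Equiv.sum_comp w]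
  refine congrArg _ (sum_congr rfl fun r _ => ?_)
  rw [pow_one, ← zpow_natCast, ← _root_.zpow_mul, zpow_mod l0 hζ.pow_eq_one, mul_comm (rv ν _),
    (ZMod.intCast_eq_intCast_iff' _ _ _).1 (h2 r), ← zpow_mod l0 hζ.pow_eq_one]

theorem sum_count {α : Type*} [AddCommMonoid α] {l : ℕ} (C : ℕ → α) : ∀ V : List ℕ, (∀ v ∈ V, v < l) →
    (V.map C).sum = ∑ j ∈ range l, V.count j • C j
  | [], _ => by simp
  | v :: V, h => by
    simp only [List.map_cons, List.sum_cons, sum_count C V fun w hw => h w (by simp [hw]), List.count_cons, add_smul,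
      sum_add_distrib, beq_iff_eq, ite_smul, one_smul, zero_smul, sum_ite_eq, mem_range, h v (by simp), if_true,
      add_comm]

theorem fourier {l : ℕ} {ζ : ℂ} (hζ : IsPrimitiveRoot ζ l) (N T : ℕ → ℕ)
    (h : ∀ k, ∑ j ∈ range l, N j * ζ ^ (j * k) = ∑ j ∈ range l, T j * ζ ^ (j * k)) : ∀ j < l, N j = T j :=
  fun j hj => by
    have := congrFun (eq_zero_of_forall_pow_sum_mul_pow_eq_zero (f := fun i : Fin l => ζ ^ i.1)
      (v := fun i => (N i - T i : ℂ)) (fun a b e => Fin.ext (hζ.pow_inj a.2 b.2 e)) fun i => by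
        simp only [sub_mul, sum_sub_distrib, ← pow_mul]
        rw [← sum_range fun j => N j * ζ ^ (j * i.1), ← sum_range fun j => T j * ζ ^ (j * i.1), h, sub_self]) ⟨j, hj⟩
    exact_mod_cast sub_eq_zero.1 this

theorem par_WW : ∀ n a : ℕ, a < 3 ^ n → ∀ w ∈ WW n a, w % 2 = a % 2
  | 0, a, h, w, hw => by
    simp [WW] at hw
    omega
  | n + 1, a, h, w, hw => by
    simp only [WW, List.mem_flatMap, List.mem_map] at hw
    obtain ⟨v, hv, s, hs, rfl⟩ := hw
    have := par_WW n _ (by omega) v hv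
    have h1 : a % 3 = 0 ∨ a % 3 = 1 ∨ a % 3 = 2 := by omega
    rcases h1 with e | e | e <;> simp [e, sw] at hs <;> omega

/-- the residue of half a weight -/
def res (l : ℕ) (w : ℤ) : ℕ := (w / 2 % l).toNat

/-- value of a functional on a simple module -/
def ew {α : Type*} [AddCommMonoid α] (n l : ℕ) (C : ℕ → α) (a : ℕ) : α := ((WW n a).map fun w => C (res l w)).sum

theorem ew_eq {α : Type*} [AddCommMonoid α] (n : ℕ) {l : ℕ} (l0 : l ≠ 0) (C : ℕ → α) (Mu : ℕ → ℕ) (s : Finset ℕ) :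
    ∑ a ∈ s, Mu a • ew n l C a = ∑ j ∈ range l, (∑ a ∈ s, Mu a * ((WW n a).map (res l)).count j) • C j := by
  simp only [sum_smul, mul_smul]
  rw [sum_comm]
  refine sum_congr rfl fun a _ => ?_
  rw [← smul_sum, ← sum_count, List.map_map]
  · rfl
  · simp only [List.mem_map]
    rintro _ ⟨w, -, rfl⟩
    have := Int.emod_lt_of_pos (w / 2) (show (0 : ℤ) < l by omega)
    rw [res]; omega

variable {F : Type*} [Field F] [Fintype F]

theorem key {m : ℕ} (hF : Fintype.card F = 3 ^ (m + 1)) (f : SL(2, F) →* E83) (hf : ∀ g, f g = 1 ↔ g = 1 ∨ g = -1) :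
    ∃ Mu : ℕ → ℕ, (∀ a < 3 ^ (m + 1), Mu (rot m a) = Mu a) ∧ (∀ a < 3 ^ (m + 1), a % 2 = 1 → Mu a = 0) ∧
      ∀ l : ℕ, (3 ^ (m + 1) + 1) % (2 * l) = 2 ∨ (3 ^ (m + 1) + 1) % (2 * l) = 0 → ∃ L : List ℕ,
        (∀ f, alcB [2, 3, 4, 6, 5, 4, 3, 2] l f = true → f L = true) ∧
        (∀ j < l, cn l (vs l L) (3 * j % l) = cn l (vs l L) j) ∧ ∑ j ∈ range l, cn l (vs l L) j = 240 ∧
        (2 ∣ l → cn l (vs l L) 0 ≠ 240) ∧ ∀ (α : Type) [AddCommMonoid α] (C : ℕ → α),
          ∑ a ∈ range (3 ^ (m + 1)), Mu a • ew (m + 1) l C a = 8 • C 0 + ∑ j ∈ range l, cn l (vs l L) j • C j := by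
  obtain ⟨M, δ, β, hM, h, -⟩ := ex_bc8
  obtain ⟨Mu, h1, h2, h3⟩ := sl2_bc hM hF (h.comp f)
    (fun g l hl hg => by simpa using cube h hM hl (by rw [← map_pow, hg, map_one]))
    (by rw [(hf _).2 (.inr rfl), map_one])
  refine ⟨Mu, h1, h2, fun l hq => ?_⟩
  have q3 : 3 ≤ 3 ^ (m + 1) := by have := Nat.pos_of_neZero (3 ^ m); omega
  have hq' : 2 * l ∣ 3 ^ (m + 1) - 1 ∨ 2 * l ∣ 3 ^ (m + 1) + 1 := by
    refine hq.imp (fun e => ⟨(3 ^ (m + 1) + 1) / (2 * l), ?_⟩) Nat.dvd_of_mod_eq_zero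
    have := Nat.div_add_mod (3 ^ (m + 1) + 1) (2 * l)
    omega
  have hl : ¬ 3 ∣ l := fun e => by rcases hq' with a | a <;> have := (e.mul_left 2).trans a <;> omega
  have l0 : l ≠ 0 := by omega
  have hx := Complex.isPrimitiveRoot_exp (2 * l) (by omega)
  generalize Complex.exp _ = x at hx
  have hζ : IsPrimitiveRoot (x ^ 2) l := hx.pow (by omega) rfl
  obtain ⟨g, hg, h4⟩ := h3 l x hl (hx.pow (by omega) (mul_comm 2 l)).eq_neg_one_of_two_right (by
    refine hq'.imp (fun ⟨c, e⟩ => ?_) fun ⟨c, e⟩ => eq_inv_of_mul_eq_one_left ?_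
    · rw [show 3 ^ (m + 1) = 2 * l * c + 1 by omega, pow_succ, pow_mul, hx.pow_eq_one, one_pow, one_mul]
    · rw [← pow_succ, e, pow_mul, hx.pow_eq_one, one_pow])
  have hs : f g ^ l = 1 := by rw [← map_pow, hg, (hf _).2 (.inr rfl)]
  obtain ⟨L, a1, a2, a3, -⟩ := h.mult8 hM hl hζ hs
  have a4 : ∑ j ∈ range l, cn l (vs l L) j = 240 := by
    have := a2 0
    simp only [pow_zero, h.one8, mul_zero, mul_one] at this
    exact_mod_cast (show ∑ j ∈ range l, (cn l (vs l L) j : ℂ) = 240 by linear_combination -this)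
  refine ⟨L, a1, a3, a4, fun ⟨c, hc⟩ e => ?_, fun α _ C => ?_⟩
  · have a5 : f g = 1 := h.eq_one8 hM hl hs (by
      rw [← add_sum_erase _ _ (mem_range.2 (Nat.pos_of_ne_zero l0)), e, add_eq_left, sum_eq_zero_iff] at a4
      rw [← pow_one (f g), a2, sum_eq_single_of_mem 0 (mem_range.2 (Nat.pos_of_ne_zero l0)) fun j hj j0 => by
        simp [a4 j (mem_erase.2 ⟨j0, hj⟩)], e]
      norm_num)
    have a6 : (1 : SL(2, F)) = -1 := by rcases (hf g).1 a5 with rfl | rfl <;> simpa [hc, pow_mul] using hg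
    haveI := Fact.mk Nat.prime_three
    haveI := charP_of_card_eq_prime_pow hF
    have : (1 : F) = -1 := congrArg (fun g : SL(2, F) => g 0 0) a6
    exact absurd ((CharP.cast_eq_zero_iff F 3 2).1 (by push_cast; linear_combination this)) (by omega)
  · have a5 := fourier hζ (fun j => ∑ a ∈ range (3 ^ (m + 1)), Mu a * ((WW (m + 1) a).map (res l)).count j)
      (fun j => cn l (vs l L) j + if j = 0 then 8 else 0) fun k => by
        have b1 := ew_eq (m + 1) l0 (fun j => (x ^ 2) ^ (j * k)) Mu (range (3 ^ (m + 1)))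
        simp only [nsmul_eq_mul] at b1
        have b2 := a2 k
        rw [← map_pow, h4] at b2
        rw [← b1]
        refine Eq.trans (sum_congr rfl fun a ha => ?_) (b2.trans ?_)
        · rcases Nat.mod_two_eq_zero_or_one a with e | e
          · rw [ew, ch, List.map_congr_left]
            intro w hw
            have := par_WW _ _ (mem_range.1 ha) w hw
            rw [pow_mul, ← zpow_natCast _ (res l w), res, Int.toNat_of_nonneg (Int.emod_nonneg _ (by omega)),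
              ← zpow_mod l0 hζ.pow_eq_one, ← zpow_natCast x 2, ← _root_.zpow_mul, ← zpow_natCast, ← zpow_natCast,
              ← _root_.zpow_mul, ← _root_.zpow_mul, mul_comm]
            congr 2
            omega
          · simp [h2 a (mem_range.1 ha) e]
        · simp [add_mul, sum_add_distrib, Nat.pos_of_ne_zero l0, add_comm]
    rw [ew_eq _ l0, sum_congr rfl fun j hj => by rw [a5 j (mem_range.1 hj)]]
    simp [add_smul, sum_add_distrib, Nat.pos_of_ne_zero l0, add_comm]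

end H20.E8
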