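/-
Homomorphisms `PSL₂(3ⁿ) → E₈(3)`: the verified searches.
-/
import Cfsg.Agent.H20.E8.E

set_option autoImplicit false
set_option linter.unusedSectionVars false
set_option linter.style.haveILetI false

namespace H20.E8
open H0.BC Finset H23.Sec

section bd
variable (k : ℕ)

/-- all digits are bounded -/
def bd : ℕ → ℕ → ℕ → Bool
  | 0, x, _ => x == 0
  | N + 1, x, c => Nat.ble (x % 2 ^ (k + 1)) c && bd N (x / 2 ^ (k + 1)) c

/-- the guard bits -/
def gd : ℕ → ℕ
  | 0 => 0
  | N + 1 => 2 ^ k + 2 ^ (k + 1) * gd N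

variable {k}

theorem bd_zero (c : ℕ) : ∀ N, bd k N 0 c = true
  | 0 => rfl
  | N + 1 => by simp [bd, bd_zero c N]

theorem bd_mono {c e : ℕ} (h : c ≤ e) : ∀ {N x}, bd k N x c = true → bd k N x e = true
  | 0, _, h1 => h1
  | N + 1, x, h1 => by
    simp only [bd, Bool.and_eq_true, Nat.ble_eq] at h1 ⊢
    exact ⟨h1.1.trans h, bd_mono h h1.2⟩

theorem bd_add {c e : ℕ} (h : c + e < 2 ^ k) : ∀ {N x y}, bd k N x c = true → bd k N y e = true →
    bd k N (x + y) (c + e) = true
  | 0, _, _, h1, h2 => by simp_all [bd]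
  | N + 1, x, y, h1, h2 => by
    simp only [bd, Bool.and_eq_true, Nat.ble_eq] at h1 h2 ⊢
    have h3 : x % 2 ^ (k + 1) + y % 2 ^ (k + 1) < 2 ^ (k + 1) := by omega
    rw [Nat.add_mod_of_add_mod_lt h3, Nat.add_div_eq_of_add_mod_lt h3]
    exact ⟨by omega, bd_add h h1.2 h2.2⟩

theorem bd_and {c : ℕ} (h : c < 2 ^ k) : ∀ {N x}, bd k N x c = true → x &&& gd k N = 0
  | 0, _, _ => by simp [gd]
  | N + 1, x, h1 => by
    simp only [bd, Bool.and_eq_true, Nat.ble_eq] at h1
    have h2 : 2 ^ k < 2 ^ (k + 1) := by omega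
    rw [← Nat.div_add_mod (x &&& _) (2 ^ (k + 1)), Nat.and_div_two_pow, Nat.and_mod_two_pow, gd,
      Nat.add_mul_div_left _ _ (by omega), Nat.add_mul_mod_self_left, Nat.div_eq_of_lt h2, Nat.mod_eq_of_lt h2,
      zero_add, bd_and h h1.2, Nat.and_two_pow, Nat.testBit_lt_two_pow (h1.1.trans_lt h)]
    simp

theorem bd_pow : ∀ {N j}, j < N → bd k N ((2 ^ (k + 1)) ^ j) 1 = true
  | N + 1, 0, _ => by
    have : 1 < 2 ^ (k + 1) := Nat.one_lt_two_pow (by omega)
    simp [bd, Nat.mod_eq_of_lt this, Nat.div_eq_of_lt this, bd_zero]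
  | N + 1, j + 1, h => by simp [bd, pow_succ (2 ^ (k + 1)), bd_pow (show j < N by omega)]

end bd

/-- sum of a function over the roots -/
def hs {α : Type*} [AddCommMonoid α] (l : ℕ) (C : ℕ → α) (V : List ℕ) : α :=
  (V.map fun v => C v + C ((l - v) % l)).sum

theorem hs_eq {α : Type*} [AddCommMonoid α] {l : ℕ} (l0 : l ≠ 0) (C : ℕ → α) (L : List ℕ) :
    ∑ j ∈ range l, cn l (vs l L) j • C j = hs l C (vs l L) := by
  haveI := NeZero.mk l0
  have h : ∀ v ∈ vs l L, v < l := by
    simp only [vs, List.mem_map]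
    rintro _ ⟨c, -, rfl⟩
    exact Nat.mod_lt _ (by omega)
  rw [hs, List.map_congr_left (g := fun v : ℕ => C (v : ZMod l).val + C (-(v : ZMod l)).val) fun v hv => by
    rw [ZMod.neg_val', ZMod.val_cast_of_lt (h v hv)], sum_list_cn (fun x => C x.val) _ h]
  exact sum_congr rfl fun j hj => by rw [ZMod.val_cast_of_lt (mem_range.1 hj)]

/-- fast dot product -/
def fd : List ℕ → List ℕ → ℕ
  | c :: cs, a :: as => Nat.add (Nat.mul c a) (fd cs as)
  | _, _ => 0

theorem fd_eq : ∀ c a, fd c a = dotL c a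
  | [], _ => rfl
  | _ :: _, [] => rfl
  | c :: cs, a :: as => congrArg (c * a + ·) (fd_eq cs as)

/-- contribution of a pair of roots -/
def tm (l v : ℕ) : ℕ := Nat.add (Nat.pow 512 v) (Nat.pow 512 (Nat.mod (Nat.sub l v) l))

/-- fast histogram -/
def fh (l u : ℕ) (A : List ℕ) : List (List ℕ) → ℕ
  | [] => 0
  | c :: R => Nat.add (tm l (Nat.mod (Nat.mul u (fd c A)) l)) (fh l u A R)

theorem fh_eq {l u : ℕ} (A : List ℕ) : ∀ R, fh l u A R =
    hs l (fun j => 512 ^ (u * j % l)) (R.map fun c => dotL c A % l)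
  | [] => rfl
  | c :: R => by
    rw [fh, fh_eq A R, fd_eq]
    simp only [hs, List.map_cons, List.sum_cons, tm, Nat.add_eq, Nat.pow_eq, Nat.mul_eq, Nat.sub_eq,
      show ∀ a b, Nat.mod a b = a % b from fun _ _ => rfl,
      Nat.mul_mod_mod]
    rcases Nat.eq_zero_or_pos l with rfl | l0
    · simp
    congr 3
    have h1 := Nat.mod_lt (u * dotL c A) l0
    have h2 := Nat.mod_lt (dotL c A) l0
    refine Nat.ModEq.add_right_cancel' (u * dotL c A % l) ?_
    rw [Nat.sub_add_cancel h1.le, ← Nat.mul_mod_mod]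
    refine Nat.ModEq.trans ?_ ((Nat.mod_modEq _ _).add_left _).symm
    rw [← mul_add, Nat.sub_add_cancel h2.le]
    simp [Nat.ModEq]

theorem fh_one {l : ℕ} (A : List ℕ) (R : List (List ℕ)) :
    fh l 1 A R = hs l (512 ^ ·) (R.map fun c => dotL c A % l) := by
  simp [fh_eq, hs, Function.comp_def]

/-- the test for a table -/
def chk (l : ℕ) (C : ℕ → ℤ) (U : List ℤ) : Bool := alcB [2, 3, 4, 6, 5, 4, 3, 2] l fun L =>
  !(Nat.beq (fh l 1 L PR) (fh l 3 L PR)) || decide (8 • C 0 + hs l C (vs l L) ∈ U)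

theorem chk_spec {l : ℕ} (hl : ¬ 3 ∣ l) {C : ℕ → ℤ} {U : List ℤ} (h : chk l C U = true) {L : List ℕ}
    (h1 : ∀ f, alcB [2, 3, 4, 6, 5, 4, 3, 2] l f = true → f L = true)
    (h2 : ∀ j < l, cn l (vs l L) (3 * j % l) = cn l (vs l L) j) : 8 • C 0 + ∑ j ∈ range l, cn l (vs l L) j • C j ∈ U := by
  have l0 : l ≠ 0 := by omega
  have hm : ∀ a ∈ range l, 3 * a % l ∈ range l := fun a _ => mem_range.2 (Nat.mod_lt _ (by omega))
  have hi : Set.InjOn (3 * · % l) (range l) := fun a ha b hb e => Nat.ModEq.eq_of_lt_of_lt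
    (Nat.ModEq.cancel_left_of_coprime ((Nat.Prime.coprime_iff_not_dvd Nat.prime_three).2 hl).symm e)
    (by simpa using ha) (by simpa using hb)
  have := h1 _ h
  rw [fh_one, fh_eq, ← vs, ← hs_eq l0, ← hs_eq l0, ← hs_eq l0, ← sum_nbij (f := fun j => cn l (vs l L) j • 512 ^ (3 * j % l)) _ hm hi
    (surjOn_of_injOn_of_card_le _ hm hi le_rfl) fun j hj => by rw [h2 j (mem_range.1 hj)]] at this
  simpa using this

/-- search for multiplicities -/
def go (G : ℕ) (P : ℕ → ℕ → Bool) : ℕ → List (ℕ × ℕ × ℕ) → ℕ → ℕ → Bool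
  | 0, _, _, _ => false
  | _ + 1, [], r, p => P r p
  | f + 1, x :: I, r, p => go G P f I r p &&
    (!(Nat.ble x.2.1 r && (r - x.2.1) &&& G == 0) || go G P f (x :: I) (r - x.2.1) (p + x.2.2))

theorem bd_sum {t : ℕ} : ∀ J : List (ℕ × ℕ × ℕ × ℕ), (∀ x ∈ J, bd 15 11 x.2.2.1 (51 * x.2.1) = true) →
    t + (J.map fun x => x.1 * x.2.1).sum ≤ 248 →
    bd 15 11 (t + (J.map fun x => x.1 * x.2.2.1).sum) (51 * (t + (J.map fun x => x.1 * x.2.1).sum)) = true
  | [], _, h => by
    simp only [List.map_nil, List.sum_nil, add_zero] at h ⊢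
    rw [bd, Nat.mod_eq_of_lt (by omega), Nat.div_eq_of_lt (by omega), bd_zero]
    simp only [Bool.and_true, Nat.ble_eq]
    omega
  | (n, x) :: J, h1, h => by
    induction n with
    | zero => simpa using bd_sum J (fun y hy => h1 y (by simp [hy])) (by simpa using h)
    | succ n ih =>
      simp only [List.map_cons, List.sum_cons, add_mul, one_mul, List.mem_cons, forall_eq_or_imp] at h h1 ih ⊢
      convert bd_add (by omega) (ih h1 (by omega)) h1.1 using 2 <;> ring

theorem go_spec {P : ℕ → ℕ → Bool} {t : ℕ} : ∀ (f : ℕ) (J : List (ℕ × ℕ × ℕ × ℕ)) (p : ℕ),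
    (∀ x ∈ J, bd 15 11 x.2.2.1 (51 * x.2.1) = true) → t + (J.map fun x => x.1 * x.2.1).sum ≤ 248 →
    go (gd 15 11) P f (J.map Prod.snd) (t + (J.map fun x => x.1 * x.2.2.1).sum) p = true →
    P t (p + (J.map fun x => x.1 * x.2.2.2).sum) = true
  | 0, _, _, _, _, h => by simp [go] at h
  | f + 1, [], p, _, _, h => by simpa [go] using h
  | f + 1, (0, x) :: J, p, h1, h2, h => by
    simp only [List.map_cons, go, Bool.and_eq_true, List.sum_cons, zero_mul, zero_add] at h h2 ⊢
    exact go_spec f J p (fun y hy => h1 y (by simp [hy])) h2 h.1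
  | f + 1, (n + 1, x) :: J, p, h1, h2, h => by
    have h3 : ∀ y ∈ (n, x) :: J, bd 15 11 y.2.2.1 (51 * y.2.1) = true := by simpa using h1
    have h4 : t + (((n, x) :: J).map fun x => x.1 * x.2.1).sum ≤ 248 := by
      simp only [List.map_cons, List.sum_cons, add_mul] at h2 ⊢; omega
    have h5 : t + (((n + 1, x) :: J).map fun x => x.1 * x.2.2.1).sum =
        t + (((n, x) :: J).map fun x => x.1 * x.2.2.1).sum + x.2.1 := by simp; ring
    rw [h5, List.map_cons, go, Nat.add_sub_cancel, bd_and (by omega) (bd_sum _ h3 h4)] at h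
    simp only [Bool.and_eq_true, Nat.ble_eq, BEq.rfl, Bool.and_true, Bool.or_eq_true, Bool.not_eq_eq_eq_not,
      Bool.not_true, ← Bool.not_eq_true, Nat.le_add_left, not_true, false_or] at h
    convert go_spec f _ _ h3 h4 h.2 using 2
    simp; ring

/-- pruned search of the alcove -/
def dfs (l G : ℕ) : List (ℕ × List (List ℕ)) → List ℕ → ℕ → ℕ → Bool
  | [], _, _, _ => false
  | x :: T, A, b, r => (List.range (b / x.1 + 1)).all fun a =>
    !(Nat.ble (fh l 1 (a :: A) x.2) r && Nat.beq (Nat.land (Nat.sub r (fh l 1 (a :: A) x.2)) G) 0) ||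
      dfs l G T (a :: A) (b - a * x.1) (Nat.sub r (fh l 1 (a :: A) x.2))

/-- the roots in full coordinates -/
def pad : List (ℕ × List (List ℕ)) → List (List ℕ)
  | [] => []
  | x :: T => x.2.map (List.replicate T.length 0 ++ ·) ++ pad T

theorem dot_pad (c A : List ℕ) : ∀ B : List ℕ, dotL (List.replicate B.length 0 ++ c) (B ++ A) = dotL c A
  | [] => rfl
  | b :: B => by simp [List.replicate_succ, dotL, dot_pad c A B]

theorem bd_hs {l : ℕ} : ∀ V : List ℕ, (∀ v ∈ V, v < l) → V.length < 128 →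
    bd 8 l (hs l (512 ^ ·) V) (2 * V.length) = true
  | [], _, _ => bd_zero _ _
  | v :: V, h, h1 => by
    have h2 := h v (by simp)
    simp only [List.length_cons] at h1
    convert bd_add (by omega) (bd_add (k := 8) (by omega) (bd_pow h2) (bd_pow (Nat.mod_lt (l - v) (by omega))))
      (bd_hs V (fun w hw => h w (by simp [hw])) (by omega)) using 2
    · simp [hs]
    · simp; ring

theorem dfs_spec {l : ℕ} (l0 : 0 < l) : ∀ (T : List (ℕ × List (List ℕ))) (A B : List ℕ) (b : ℕ),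
    B.length = T.length → dotL (T.map Prod.fst) B ≤ b → (∀ x ∈ T, 0 < x.1) → (pad T).length < 128 →
    dfs l (gd 8 l) T A b (hs l (512 ^ ·) ((pad T).map fun c => dotL c (B.reverse ++ A) % l)) = false
  | [], _, _, _, _, _, _, _ => rfl
  | x :: T, A, a :: B, b, h1, h2, h3, h4 => by
    simp only [List.length_cons, Nat.add_right_cancel_iff, List.map_cons, dotL, pad, List.length_append,
      List.mem_cons, forall_eq_or_imp] at h1 h2 h3 h4
    have h5 : hs l (512 ^ ·) ((pad (x :: T)).map fun c => dotL c ((a :: B).reverse ++ A) % l) =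
        hs l (512 ^ ·) ((pad T).map fun c => dotL c (B.reverse ++ a :: A) % l) +
          hs l (512 ^ ·) (x.2.map fun c => dotL c (a :: A) % l) := by
      simp [hs, pad, ← h1, add_comm, Function.comp_def, ← List.length_reverse (as := B), dot_pad, -List.length_reverse]
    rw [dfs, List.all_eq_false]
    refine ⟨a, by rw [List.mem_range, Nat.lt_succ_iff, Nat.le_div_iff_mul_le h3.1, mul_comm]; omega, ?_⟩
    rw [h5, fh_one, Nat.sub_eq, Nat.land_eq, Nat.add_sub_cancel, dfs_spec l0 T _ B _ h1 (by rw [mul_comm a]; omega) h3.2 (by omega),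
      bd_and (by simp; omega) (bd_hs _ (by simp [Nat.mod_lt _ l0]) (by simp; omega))]
    simp

theorem alc_all : ∀ (ms : List ℕ) (b : ℕ) (f : List ℕ → Bool),
    (∀ L, L.length = ms.length → dotL ms L ≤ b → f L = true) → alcB ms b f = true
  | [], _, f, h => h [] rfl (Nat.zero_le _)
  | m :: ms, b, f, h => by
    rw [alcB, List.all_eq_true]
    refine fun a ha => alc_all ms _ _ fun L h1 h2 => h _ (by simp [h1]) ?_
    have := (Nat.mul_le_mul_left m (Nat.lt_succ_iff.1 (List.mem_range.1 ha))).trans (Nat.mul_div_le b m)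
    rw [dotL, mul_comm a] at *
    omega

/-- orbits of the rotation -/
def orb (m a : ℕ) : List ℕ := ((List.range (m + 1)).map fun i => (rot m)^[i] a).dedup

/-- dimensions -/
def dd : ℕ → ℕ → ℕ
  | 0, _ => 1
  | n + 1, a => dd n (a / 3) * (a % 3 + 1)

theorem ew_one (l : ℕ) (n a : ℕ) : ew n l (fun _ => 1) a = dd n a := by
  simp only [ew, List.map_const', List.sum_replicate, smul_eq_mul, mul_one]
  induction n generalizing a with
  | zero => rfl
  | succ n ih =>
    have h1 : a % 3 = 0 ∨ a % 3 = 1 ∨ a % 3 = 2 := by omega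
    rcases h1 with e | e | e <;> simp [WW, dd, ih, e, sw]

variable {m : ℕ} {Mu : ℕ → ℕ} (h : ∀ a < 3 ^ (m + 1), Mu (rot m a) = Mu a)
include h

theorem mem_orb {a b : ℕ} (ha : a < 3 ^ (m + 1)) (hb : b ∈ orb m a) : b < 3 ^ (m + 1) ∧ Mu b = Mu a := by
  simp only [orb, List.mem_dedup, List.mem_map] at hb
  obtain ⟨i, -, rfl⟩ := hb
  induction i with
  | zero => exact ⟨ha, rfl⟩
  | succ i ih => rw [Function.iterate_succ_apply', h _ ih.1]; exact ⟨rot_lt ih.1, ih.2⟩

theorem sum_orb {α : Type*} [AddCommMonoid α] (E : ℕ → α) (R : List ℕ) (h1 : ∀ r ∈ R, r < 3 ^ (m + 1))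
    (h2 : (R.flatMap (orb m)).Nodup) (h3 : ∀ a < 3 ^ (m + 1), a ∉ R.flatMap (orb m) → Mu a = 0) :
    ∑ a ∈ range (3 ^ (m + 1)), Mu a • E a = (R.map fun r => Mu r • ((orb m r).map E).sum).sum := by
  rw [← sum_subset (s₁ := (R.flatMap (orb m)).toFinset) (fun a ha => ?_) fun a ha hb => by
    rw [h3 a (mem_range.1 ha) (by simpa using hb), zero_smul], List.sum_toFinset _ h2]
  · clear h2 h3
    induction R with
    | nil => rfl
    | cons r R ih =>
      simp only [List.flatMap_cons, List.map_append, List.sum_append, List.map_cons, List.sum_cons,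
        ih fun x hx => h1 x (by simp [hx]), List.smul_sum, List.map_map]
      rw [List.map_congr_left fun a ha => by rw [(mem_orb h (h1 r (by simp)) ha).2]]
      rfl
  · simp only [List.mem_toFinset, List.mem_flatMap] at ha
    obtain ⟨r, hr, ha⟩ := ha
    exact mem_range.2 (mem_orb h (h1 r hr) ha).1

theorem big (h1 : ∑ a ∈ range (3 ^ (m + 1)), Mu a * dd (m + 1) a = 248) {a : ℕ} (ha : a < 3 ^ (m + 1))
    (h2 : 248 < ((orb m a).map (dd (m + 1))).sum) : Mu a = 0 := by
  have := sum_le_sum_of_subset (f := fun a => Mu a * dd (m + 1) a) (s := (orb m a).toFinset)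
    fun b hb => mem_range.2 (mem_orb h ha (List.mem_toFinset.1 hb)).1
  rw [h1, List.sum_toFinset _ (show (orb m a).Nodup from List.nodup_dedup _), List.map_congr_left fun b hb => by rw [(mem_orb h ha hb).2],
    List.sum_map_mul_left] at this
  by_contra e
  exact ((Nat.le_mul_of_pos_left _ (by omega)).trans this).not_gt h2

end H20.E8
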