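/-
`E₈(3)` contains neither `PSL₂(243)` nor `PSL₂(729)`.
-/
import Cfsg.Agent.H20.E8.G

set_option autoImplicit false
set_option maxRecDepth 100000

namespace H20.E8
open H0.BC Finset H23.Sec Matrix
open scoped MatrixGroups

variable {F : Type*} [Field F] [Fintype F] (f : SL(2, F) →* E83) (hf : ∀ g, f g = 1 ↔ g = 1 ∨ g = -1)
include hf

theorem no243 (hF : Fintype.card F = 243) : False := by
  obtain ⟨Mu, h1, h2, h3⟩ := key (m := 4) hF f hf
  obtain ⟨L, a1, a2, a3, a4, a5⟩ := h3 2 (by norm_num)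
  obtain ⟨c1, c2, c3, c4⟩ := chk_R5
  have b1 := chk_spec (by norm_num) chk2 a1 a2
  have b2 := a5 ℕ id
  rw [sum_orb h1 _ _ c1 c2 fun a ha hb => h2 a ha ((c3 a ha).resolve_right hb), List.map_cons, List.map_cons,
    List.sum_cons, List.sum_cons, show ((orb 4 0).map (ew 5 2 id)).sum = 0 by decide +kernel,
    show ((orb 4 242).map (ew 5 2 id)).sum = 122 by decide +kernel] at b2
  obtain ⟨c, hc⟩ : 5 ∣ (R5.map fun r => Mu r • ((orb 4 r).map (ew 5 2 id)).sum).sum := List.dvd_sum fun x hx => by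
    obtain ⟨r, hr, rfl⟩ := List.mem_map.1 hx
    exact (c4 r hr).mul_left _
  have := a4 dvd_rfl
  rw [hc] at b2
  simp [sum_range_succ] at a3 b1 b2
  omega

omit hf in
theorem not_W0 {L : List ℕ} (h : ∀ f, alcB [2, 3, 4, 6, 5, 4, 3, 2] 52 f = true → f L = true) :
    8 + hs 52 (512 ^ ·) (vs 52 L) ≠ W0 := fun e => by
  have h1 := h (fun L => decide (L.length = 8 ∧ dotL [2, 3, 4, 6, 5, 4, 3, 2] L ≤ 52))
    (alc_all _ _ _ fun L h1 h2 => decide_eq_true ⟨h1, h2⟩)
  obtain ⟨h1, h2⟩ := of_decide_eq_true h1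
  obtain _ | ⟨a0, _ | ⟨a1, _ | ⟨a2, _ | ⟨a3, _ | ⟨a4, _ | ⟨a5, _ | ⟨a6, _ | ⟨a7, _ | _⟩⟩⟩⟩⟩⟩⟩⟩ := L <;>
    simp only [List.length_cons, List.length_nil] at h1 <;> try omega
  have := dfs_spec (l := 52) (by norm_num) LV [] [a3, a4, a2, a1, a5, a0, a6, a7] 52 rfl
    (by change dotL [6, 5, 4, 3, 4, 2, 3, 2] _ ≤ _; simp only [dotL] at h2 ⊢; omega) (by decide) (by decide +kernel)
  rw [hs, ← ((pad_LV.map _).map _).sum_eq, List.map_map (l := PR), ← hs, List.map_congr_left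
    (g := fun c => dotL c [a0, a1, a2, a3, a4, a5, a6, a7] % 52), ← vs, Nat.eq_sub_of_add_eq' e, chk52] at this
  · exact absurd this (by decide)
  · intro c hc
    have h3 : ∀ c ∈ PR, c.length = 8 := by decide +kernel
    have h3 := h3 c hc
    obtain _ | ⟨c0, _ | ⟨c1, _ | ⟨c2, _ | ⟨c3, _ | ⟨c4, _ | ⟨c5, _ | ⟨c6, _ | ⟨c7, _ | _⟩⟩⟩⟩⟩⟩⟩⟩ := c <;>
      simp only [List.length_cons, List.length_nil] at h3 <;> try omega
    simp [dotL]
    ring_nf

omit hf in
theorem go_main {P : ℕ → ℕ → Bool} {R : List ℕ} {d w : ℕ → ℕ} {v : ℕ → ℤ} {I : List (ℕ × ℕ × ℕ)}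
    (hI : (R.map fun r => (d r, v r, w r)) = I.map fun x => (x.1, (x.2.1 : ℤ), x.2.2))
    (hb : ∀ x ∈ I, bd 15 11 x.2.1 (51 * x.1) = true) (Mu : ℕ → ℕ) {t n : ℕ}
    (hD : t + (R.map fun r => Mu r * d r).sum ≤ 248) {u : ℤ} (hu : u = t + (R.map fun r => Mu r • v r).sum)
    (hg : (decide (u < 0) || !(u.toNat &&& gd 15 11 == 0) || go (gd 15 11) P n I u.toNat 0) = true) :
    P t (R.map fun r => Mu r * w r).sum = true := by
  let J := R.map fun r => (Mu r, d r, (v r).toNat, w r)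
  have hJ : J.map Prod.snd = I := by
    have := congrArg (List.map fun x => (x.1, x.2.1.toNat, x.2.2)) hI
    simpa [J, Function.comp_def] using this
  have hv : ∀ r ∈ R, ((v r).toNat : ℤ) = v r := fun r hr => by
    obtain ⟨x, -, hx⟩ := List.mem_map.1 (hI ▸ List.mem_map_of_mem (f := fun r => (d r, v r, w r)) hr)
    simp [← (Prod.mk.inj (Prod.mk.inj hx).2).1]
  have hb : ∀ x ∈ J, bd 15 11 x.2.2.1 (51 * x.2.1) = true := fun x hx => hb _ (hJ ▸ List.mem_map_of_mem hx)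
  have hD : t + (J.map fun x => x.1 * x.2.1).sum ≤ 248 := by simpa [J, Function.comp_def] using hD
  rw [show u = (t + (J.map fun x => x.1 * x.2.2.1).sum : ℕ) by
    rw [hu, List.map_congr_left fun r hr => by rw [← hv r hr]]
    simp [J, Function.comp_def], Int.toNat_natCast, bd_and (by omega) (bd_sum J hb hD), ← hJ] at hg
  simp only [BEq.rfl, Bool.not_true, Bool.or_false, Bool.or_eq_true, decide_eq_true_eq] at hg
  simpa [J, Function.comp_def] using go_spec _ J _ hb hD (hg.resolve_left (by omega))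

theorem no729 (hF : Fintype.card F = 729) : False := by
  obtain ⟨Mu, h1, h2, h3⟩ := key (m := 5) hF f hf
  obtain ⟨L4, a1, a2, a3, a4, a5⟩ := h3 4 (by norm_num)
  obtain ⟨L13, b1, b2, -, -, b5⟩ := h3 13 (by norm_num)
  obtain ⟨L14, c1, c2, -, -, c5⟩ := h3 14 (by norm_num)
  obtain ⟨L5, d1, d2, -, -, d5⟩ := h3 5 (by norm_num)
  obtain ⟨L52, e1, -, -, -, e5⟩ := h3 52 (by norm_num)
  obtain ⟨r1, r2, r3⟩ := chk_R6
  have hd := a5 ℕ fun _ => 1
  simp only [ew_one, smul_eq_mul, mul_one, a3] at hd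
  have hs := fun (α : Type) [AddCommMonoid α] (E : ℕ → α) => sum_orb h1 E _ r1 r2 fun a ha hb =>
    (r3 a ha).elim (h2 a ha) fun h => big h1 hd ha (h.resolve_right hb)
  have u4 := chk_spec (by norm_num) chk4 a1 a2
  have u13 := chk_spec (by norm_num) chk13 b1 b2
  have u14 := chk_spec (by norm_num) chk14 c1 c2
  have u5 := chk_spec (by norm_num) chk5 d1 d2
  rw [← a5, hs] at u4
  rw [← b5, hs] at u13
  rw [← c5, hs] at u14
  rw [← d5, hs] at u5
  have hg := List.all_eq_true.1 (List.all_eq_true.1 (List.all_eq_true.1 (List.all_eq_true.1 chk_go _ u4) _ u13) _ u14)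
    _ u5
  have hD := hs ℕ (dd 6)
  simp only [smul_eq_mul, hd, List.map_cons, List.sum_cons] at hD
  rw [show ((orb 5 0).map (dd 6)).sum = 1 by decide +kernel, mul_one] at hD
  have := go_main chk_I chk_bd Mu hD.ge (by
    rw [← List.sum_map_add, ← List.sum_map_add, ← List.sum_map_add]
    simp only [← smul_add]
    change ((0 :: R6).map fun r => Mu r • vv r).sum = _
    rw [List.map_cons, List.sum_cons, show vv 0 = 1 by decide +kernel, nsmul_one]) hg
  simp only [Bool.or_eq_true, Nat.ble_eq, beq_iff_eq] at this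
  rcases this with h | h
  · have h4 := single_le_sum (f := fun a => Mu a • ew 6 4 (fun j => if j = 0 then 1 else 0) a)
      (fun _ _ => Nat.zero_le _) (mem_range.2 (show 0 < 3 ^ 6 by norm_num))
    rw [a5, show ew 6 4 (fun j => if j = 0 then 1 else 0) 0 = 1 by decide +kernel] at h4
    have := a4 (by norm_num)
    simp [sum_range_succ] at a3 h4
    omega
  · have h4 := e5 ℕ (512 ^ ·)
    rw [hs, hs_eq (by norm_num), List.map_cons, List.sum_cons,
      show ((orb 5 0).map (ew 6 52 (512 ^ ·))).sum = 1 by decide +kernel] at h4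
    refine not_W0 e1 (h4.symm.trans (Eq.trans ?_ h))
    simp only [smul_eq_mul, mul_one, add_comm]

omit hf in
theorem ex_hom {Γ : Type*} [Group Γ] {H : Subgroup Γ} (e : H ≃* ProjectiveSpecialLinearGroup (Fin 2) F) :
    ∃ f : SL(2, F) →* Γ, ∀ g, f g = 1 ↔ g = 1 ∨ g = -1 := by
  refine ⟨H.subtype.comp (e.symm.toMonoidHom.comp (QuotientGroup.mk' _)), fun g => ?_⟩
  simp only [MonoidHom.comp_apply, Subgroup.coe_subtype, OneMemClass.coe_eq_one, MulEquiv.toMonoidHom_eq_coe,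
    MonoidHom.coe_coe, EmbeddingLike.map_eq_one_iff, QuotientGroup.mk'_apply, QuotientGroup.eq_one_iff]
  refine ⟨fun h => ?_, ?_⟩
  · obtain ⟨r, h1, h2⟩ := Matrix.SpecialLinearGroup.mem_center_iff.1 h
    refine (show r = 1 ∨ r = -1 by simpa using h1).imp ?_ ?_ <;> rintro rfl <;> exact Subtype.ext (h2.symm.trans (by simp [← diagonal_neg]))
  · rintro (rfl | rfl)
    · exact one_mem _
    · exact Subgroup.mem_center_iff.2 fun g => by simp

end H20.E8
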